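-- In PSL_3(4) all subgroups of order 3 are conjugate (helper40).
import Mathlib
import Cfsg.Agent.Lib.Helper40.Semisimple

set_option autoImplicit false
open scoped Pointwise

namespace Cfsg.Agent.Lib.Helper40

open Polynomial

universe u

variable {F : Type u} [Field F] [Fintype F]

theorem two_eq_zero_of_card_four (hF : Fintype.card F = 4) : (2 : F) = 0 := by
  obtain ⟨p, hp⟩ := CharP.exists F
  have : Fact p.Prime := ⟨CharP.char_is_prime F p⟩
  have hpp : p.Prime := Fact.out
  have hp2 : p = 2 := by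
    obtain ⟨n, -, hq⟩ := FiniteField.card F p
    rw [hF] at hq
    have h1 : p ∣ 4 := by
      rw [hq]
      exact dvd_pow_self p n.ne_zero
    have h2 : p ∣ 2 := by
      have h4 : (4 : ℕ) = 2 ^ 2 := by norm_num
      rw [h4] at h1
      exact hpp.dvd_of_dvd_pow h1
    exact (Nat.prime_dvd_prime_iff_eq hpp Nat.prime_two).1 h2
  subst hp2
  have h := CharP.cast_eq_zero F 2
  exact_mod_cast h

/-- A non-scalar `3 × 3` matrix of determinant one over the field with four elements whose cube is
scalar has cube one and characteristic polynomial `X³ - 1`. -/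
theorem sl3_four_cube (hF : Fintype.card F = 4) (M : Matrix (Fin 3) (Fin 3) F)
    (hdet : M.det = 1) (c : F) (hM : M ^ 3 = c • (1 : Matrix (Fin 3) (Fin 3) F))
    (hns : ∀ r : F, M ≠ r • (1 : Matrix (Fin 3) (Fin 3) F)) :
    M ^ 3 = 1 ∧ M.charpoly = X ^ 3 - 1 := by
  classical
  have h20 : (2 : F) = 0 := two_eq_zero_of_card_four hF
  have hneg : ∀ x : F, -x = x := by
    intro x
    rw [neg_eq_iff_add_eq_zero, ← two_mul, h20, zero_mul]
  have hmonic : M.charpoly.Monic := Matrix.charpoly_monic M
  have hdeg : M.charpoly.natDegree = 3 := by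
    rw [Matrix.charpoly_natDegree_eq_dim]
    simp
  have hc0 : M.charpoly.coeff 0 = 1 := by
    have h := Matrix.det_eq_sign_charpoly_coeff M
    rw [hdet] at h
    simp only [Fintype.card_fin] at h
    rw [h]
    have h3 : ((-1 : F)) ^ 3 = 1 := by
      rw [hneg]
      simp
    rw [h3, one_mul]
  set a := M.charpoly.coeff 2 with ha
  set b := M.charpoly.coeff 1 with hb
  have hform : M.charpoly = X ^ 3 + C a * X ^ 2 + C b * X + 1 := by
    have h := hmonic.as_sum
    rw [hdeg, Finset.sum_range_succ, Finset.sum_range_succ, Finset.sum_range_one, hc0] at h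
    rw [h]
    simp only [pow_zero, pow_one, map_one, mul_one]
    ring
  have hCH : aeval M M.charpoly = 0 := Matrix.aeval_self_charpoly M
  have h0 : M ^ 3 + a • M ^ 2 + b • M + 1 = 0 := by
    have h := hCH
    rw [hform] at h
    simpa [Algebra.smul_def] using h
  have hinj : ∀ r : F, r • (1 : Matrix (Fin 3) (Fin 3) F) = 0 → r = 0 := by
    intro r hr
    have h := congrFun (congrFun hr 0) 0
    simpa using h
  have hc_ne : c ≠ 0 := by
    rintro rfl
    rw [zero_smul] at hM
    have h := congrArg Matrix.det hM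
    rw [Matrix.det_pow, hdet, one_pow, Matrix.det_zero] at h
    exact one_ne_zero h
  have hρ : a • M ^ 2 + b • M + (1 + c) • (1 : Matrix (Fin 3) (Fin 3) F) = 0 := by
    rw [hM] at h0
    rw [← h0]
    module
  have hcube : ∀ s : F, s ≠ 0 → s ^ 3 = 1 := by
    intro s hs
    have h := FiniteField.pow_card_sub_one_eq_one s hs
    rwa [hF] at h
  by_cases ha0 : a = 0
  · rw [ha0, zero_smul, zero_add] at hρ
    by_cases hb0 : b = 0
    · rw [hb0, zero_smul, zero_add] at hρ
      have hc1 : 1 + c = 0 := hinj _ hρ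
      have hc : c = 1 := by
        have : c = -1 := by linear_combination hc1
        rw [this, hneg]
      constructor
      · rw [hM, hc, one_smul]
      · rw [hform, ha0, hb0]
        simp only [map_zero, zero_mul, add_zero]
        have : (1 : F[X]) = -1 := by
          rw [← C_1, ← C_neg, hneg]
        rw [sub_eq_add_neg, ← this]
    · exfalso
      apply hns (-(1 + c) / b)
      have h1 : b • M = (-(1 + c)) • (1 : Matrix (Fin 3) (Fin 3) F) := by
        rw [neg_smul]
        exact eq_neg_of_add_eq_zero_left hρ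
      calc M = b⁻¹ • (b • M) := by rw [smul_smul, inv_mul_cancel₀ hb0, one_smul]
        _ = (-(1 + c) / b) • (1 : Matrix (Fin 3) (Fin 3) F) := by
          rw [h1, smul_smul]
          congr 1
          field_simp
  · exfalso
    set s := -b / a with hs
    set t := -(1 + c) / a with ht
    have h3 : M ^ 2 = s • M + t • (1 : Matrix (Fin 3) (Fin 3) F) := by
      have h1 : a • M ^ 2 = (-b) • M + (-(1 + c)) • (1 : Matrix (Fin 3) (Fin 3) F) := by
        rw [← sub_eq_zero, ← hρ]
        module
      calc M ^ 2 = a⁻¹ • (a • M ^ 2) := by rw [smul_smul, inv_mul_cancel₀ ha0, one_smul]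
        _ = s • M + t • (1 : Matrix (Fin 3) (Fin 3) F) := by
          rw [h1, smul_add, smul_smul, smul_smul, hs, ht]
          congr 2 <;> field_simp
    have h2 : M ^ 3 = s • M ^ 2 + t • M := by
      calc M ^ 3 = M ^ 2 * M := pow_succ M 2
        _ = s • M ^ 2 + t • M := by
          rw [h3, add_mul, smul_mul_assoc, smul_mul_assoc, one_mul, ← sq, h3]
    have h4 : (s ^ 2 + t) • M = (c - s * t) • (1 : Matrix (Fin 3) (Fin 3) F) := by
      rw [h3] at h2
      rw [hM] at h2
      rw [← sub_eq_zero]
      have h5 : c • (1 : Matrix (Fin 3) (Fin 3) F) - (s • (s • M + t • (1 : Matrix (Fin 3) (Fin 3) F)) + t • M) = 0 :=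
        sub_eq_zero.2 h2
      rw [← neg_eq_zero, ← h5]
      module
    by_cases hst : s ^ 2 + t = 0
    · rw [hst, zero_smul] at h4
      have h5 : c - s * t = 0 := hinj _ h4.symm
      have ht' : t = s ^ 2 := by
        have : t = -(s ^ 2) := by linear_combination hst
        rw [this, hneg]
      have hc3 : c = s ^ 3 := by
        rw [ht'] at h5
        linear_combination h5
      have hs0 : s ≠ 0 := by
        rintro h
        rw [h] at hc3
        apply hc_ne
        rw [hc3]
        simp
      have hc1 : c = 1 := by rw [hc3, hcube s hs0]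
      have ht0 : t = 0 := by
        rw [ht, hc1]
        have : (1 : F) + 1 = 0 := by rw [← two_mul, h20, zero_mul]
        rw [this]
        simp
      rw [ht0] at ht'
      exact hs0 ((pow_eq_zero_iff (two_ne_zero)).1 ht'.symm)
    · apply hns ((c - s * t) / (s ^ 2 + t))
      calc M = (s ^ 2 + t)⁻¹ • ((s ^ 2 + t) • M) := by
            rw [smul_smul, inv_mul_cancel₀ hst, one_smul]
        _ = ((c - s * t) / (s ^ 2 + t)) • (1 : Matrix (Fin 3) (Fin 3) F) := by
          rw [h4, smul_smul]
          congr 1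
          field_simp

theorem three_ne_zero_of_card_four (hF : Fintype.card F = 4) : ((3 : ℕ) : F) ≠ 0 := by
  have h20 : (2 : F) = 0 := two_eq_zero_of_card_four hF
  have : ((3 : ℕ) : F) = 1 := by
    push_cast
    linear_combination h20
  rw [this]
  exact one_ne_zero

/-- A subgroup of order three of `PSL_3(4)` is generated by the image of an element of `SL_3(4)`
of order three with characteristic polynomial `X³ - 1`. -/
theorem psl3_four_order_three_gen (hF : Fintype.card F = 4)
    (H : Subgroup (Matrix.ProjectiveSpecialLinearGroup (Fin 3) F)) (hH : Nat.card ↥H = 3) :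
    ∃ A : Matrix.SpecialLinearGroup (Fin 3) F,
      H = Subgroup.zpowers (QuotientGroup.mk A : Matrix.ProjectiveSpecialLinearGroup (Fin 3) F) ∧
      (A : Matrix (Fin 3) (Fin 3) F) ^ 3 = 1 ∧
      (A : Matrix (Fin 3) (Fin 3) F).charpoly = X ^ 3 - 1 := by
  classical
  have : Fact (Nat.Prime 3) := ⟨Nat.prime_three⟩
  have : Finite ↥H := Nat.finite_of_card_ne_zero (by rw [hH]; norm_num)
  have hnt : Nontrivial ↥H := by
    rw [← Finite.one_lt_card_iff_nontrivial, hH]
    norm_num
  obtain ⟨x, hx⟩ := exists_ne (1 : ↥H)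
  have htop : Subgroup.zpowers x = ⊤ := zpowers_eq_top_of_prime_card hH hx
  have hx3 : x ^ 3 = 1 := by
    have h := pow_card_eq_one' (G := ↥H) (x := x)
    rwa [hH] at h
  obtain ⟨A, hA⟩ := QuotientGroup.mk_surjective (x : Matrix.ProjectiveSpecialLinearGroup (Fin 3) F)
  have hHz : H = Subgroup.zpowers (QuotientGroup.mk A : Matrix.ProjectiveSpecialLinearGroup (Fin 3) F) := by
    rw [hA]
    have h1 := congrArg (Subgroup.map H.subtype) htop
    rw [MonoidHom.map_zpowers, ← MonoidHom.range_eq_map, Subgroup.range_subtype] at h1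
    exact h1.symm
  have hA3 : (QuotientGroup.mk A : Matrix.ProjectiveSpecialLinearGroup (Fin 3) F) ^ 3 = 1 := by
    rw [hA]
    have := congrArg (Subtype.val) hx3
    simpa using this
  have hA1 : (QuotientGroup.mk A : Matrix.ProjectiveSpecialLinearGroup (Fin 3) F) ≠ 1 := by
    rw [hA]
    intro h
    apply hx
    exact Subtype.ext h
  rw [← QuotientGroup.mk_pow, QuotientGroup.eq_one_iff,
    Matrix.SpecialLinearGroup.mem_center_iff] at hA3
  obtain ⟨r, hr, hrA⟩ := hA3
  have hM : (A : Matrix (Fin 3) (Fin 3) F) ^ 3 = r • (1 : Matrix (Fin 3) (Fin 3) F) := by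
    rw [← Matrix.SpecialLinearGroup.coe_pow, ← hrA, Matrix.smul_one_eq_diagonal]
    rfl
  have hns : ∀ r : F, (A : Matrix (Fin 3) (Fin 3) F) ≠ r • (1 : Matrix (Fin 3) (Fin 3) F) := by
    intro r hr
    apply hA1
    rw [QuotientGroup.eq_one_iff, Matrix.SpecialLinearGroup.mem_center_iff]
    refine ⟨r, ?_, ?_⟩
    · have hd : (A : Matrix (Fin 3) (Fin 3) F).det = 1 := A.2
      rw [hr, Matrix.det_smul, Matrix.det_one, mul_one] at hd
      simpa using hd
    · rw [hr, Matrix.smul_one_eq_diagonal]
      rfl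
  obtain ⟨h1, h2⟩ := sl3_four_cube hF (A : Matrix (Fin 3) (Fin 3) F) A.2 r hM hns
  exact ⟨A, hHz, h1, h2⟩

omit [Fintype F] in
theorem conj_smul_zpowers {G : Type*} [Group G] (g x : G) :
    MulAut.conj g • Subgroup.zpowers x = Subgroup.zpowers (g * x * g⁻¹) := by
  have h : MulAut.conj g • Subgroup.zpowers x =
      (Subgroup.zpowers x).map (MulAut.conj g).toMonoidHom := rfl
  rw [h, MonoidHom.map_zpowers]
  rfl

theorem psl3_four_order_three_conj (hF : Fintype.card F = 4)
    (X Y : Subgroup (Matrix.ProjectiveSpecialLinearGroup (Fin 3) F))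
    (hX : Nat.card ↥X = 3) (hY : Nat.card ↥Y = 3) :
    ∃ g : Matrix.ProjectiveSpecialLinearGroup (Fin 3) F, MulAut.conj g • X = Y := by
  classical
  obtain ⟨A, hXA, hA3, hAc⟩ := psl3_four_order_three_gen hF X hX
  obtain ⟨B, hYB, hB3, hBc⟩ := psl3_four_order_three_gen hF Y hY
  have h3 : ((3 : ℕ) : F) ≠ 0 := three_ne_zero_of_card_four hF
  have hAs := isSemisimple_of_pow_eq_one (A : Matrix (Fin 3) (Fin 3) F) 3 h3 hA3
  have hBs := isSemisimple_of_pow_eq_one (B : Matrix (Fin 3) (Fin 3) F) 3 h3 hB3
  have hconj : IsConj A B := isConj_SL_of_semisimple A B hAs hBs (by rw [hAc, hBc])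
  rw [isConj_iff] at hconj
  obtain ⟨P, hP⟩ := hconj
  refine ⟨QuotientGroup.mk P, ?_⟩
  rw [hXA, hYB, conj_smul_zpowers, ← hP]
  rfl

end Cfsg.Agent.Lib.Helper40
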