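-- Sylow r-subgroups of Sp_2n(q) for an odd prime r > n not dividing q (helper40).
import Mathlib
import Cfsg.Agent.Lib.Helper40.SLSylow
import Cfsg.Agent.Lib.Helper40.SympOrder
import Cfsg.Agent.Lib.Helper45.SpRestrict
import Cfsg.Agent.S2678

set_option autoImplicit false

namespace Cfsg.Agent.Lib.Helper40

open Matrix

universe u

section blocks

variable {K : Type*} [CommRing K] {a : ℕ}

/-- The matrix with diagonal blocks given by the entries of a family of `2 × 2` matrices. -/
def sl2DiagMat (g : Fin a → Matrix (Fin 2) (Fin 2) K) : Matrix (Fin a ⊕ Fin a) (Fin a ⊕ Fin a) K :=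
  fromBlocks (diagonal fun i => g i 0 0) (diagonal fun i => g i 0 1)
    (diagonal fun i => g i 1 0) (diagonal fun i => g i 1 1)

theorem sl2DiagMat_mul (g h : Fin a → Matrix (Fin 2) (Fin 2) K) :
    sl2DiagMat (fun i => g i * h i) = sl2DiagMat g * sl2DiagMat h := by
  unfold sl2DiagMat
  rw [fromBlocks_multiply]
  simp only [diagonal_mul_diagonal, diagonal_add, Matrix.mul_apply, Fin.sum_univ_two]

theorem sl2DiagMat_one : sl2DiagMat (fun _ : Fin a => (1 : Matrix (Fin 2) (Fin 2) K)) = 1 := by
  unfold sl2DiagMat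
  simp [← fromBlocks_one]

theorem sl2DiagMat_mem (g : Fin a → Matrix (Fin 2) (Fin 2) K) (hg : ∀ i, (g i).det = 1) :
    sl2DiagMat g ∈ symplecticGroup (Fin a) K := by
  unfold sl2DiagMat
  rw [SymplecticGroup.fromBlocks_mem_iff]
  simp only [diagonal_transpose, diagonal_mul_diagonal]
  refine ⟨?_, ?_, ?_⟩
  · congr 1
    funext i
    ring
  · congr 1
    funext i
    ring
  · rw [diagonal_sub, ← diagonal_one]
    congr 1
    funext i
    have h := hg i
    rw [Matrix.det_fin_two] at h
    rw [← h]
    ring

theorem sl2DiagMat_injective :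
    Function.Injective (sl2DiagMat : (Fin a → Matrix (Fin 2) (Fin 2) K) → _) := by
  intro g h hgh
  unfold sl2DiagMat at hgh
  rw [fromBlocks_inj] at hgh
  obtain ⟨h1, h2, h3, h4⟩ := hgh
  funext i
  ext k l
  fin_cases k <;> fin_cases l
  · exact congrFun (diagonal_injective h1) i
  · exact congrFun (diagonal_injective h2) i
  · exact congrFun (diagonal_injective h3) i
  · exact congrFun (diagonal_injective h4) i

/-- The product of `a` copies of `SL_2` inside `Sp_{2a}`. -/
def sl2DiagHom : (Fin a → Matrix.SpecialLinearGroup (Fin 2) K) →* symplecticGroup (Fin a) K where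
  toFun g := ⟨sl2DiagMat (fun i => (g i : Matrix (Fin 2) (Fin 2) K)), sl2DiagMat_mem _ (fun i => (g i).2)⟩
  map_one' := by
    apply Subtype.ext
    exact sl2DiagMat_one
  map_mul' g h := by
    apply Subtype.ext
    exact sl2DiagMat_mul _ _

theorem sl2DiagHom_injective : Function.Injective (sl2DiagHom (K := K) (a := a)) := by
  intro g h hgh
  have h1 := sl2DiagMat_injective (congrArg Subtype.val hgh)
  funext i
  exact Subtype.ext (congrFun h1 i)

end blocks

section pad

variable {R : Type*} [CommRing R]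
variable {α β : Type*} [Fintype α] [DecidableEq α] [Fintype β] [DecidableEq β]

omit [Fintype α] [Fintype β] in
theorem J_sum_submatrix :
    (fromBlocks (J α R) 0 0 (J β R)).submatrix (Equiv.sumSumSumComm α β α β)
      (Equiv.sumSumSumComm α β α β) = J (α ⊕ β) R := by
  ext ((i | i) | (i | i)) ((j | j) | (j | j)) <;> simp [J, Matrix.one_apply]

/-- A symplectic matrix padded by an identity block. -/
def padSpMat (A : Matrix (α ⊕ α) (α ⊕ α) R) :
    Matrix ((α ⊕ β) ⊕ (α ⊕ β)) ((α ⊕ β) ⊕ (α ⊕ β)) R :=
  (fromBlocks A 0 0 (1 : Matrix (β ⊕ β) (β ⊕ β) R)).submatrix (Equiv.sumSumSumComm α β α β)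
    (Equiv.sumSumSumComm α β α β)

theorem padSpMat_mem (A : Matrix (α ⊕ α) (α ⊕ α) R) (hA : A ∈ symplecticGroup α R) :
    padSpMat (β := β) A ∈ symplecticGroup (α ⊕ β) R := by
  rw [SymplecticGroup.mem_iff] at hA ⊢
  unfold padSpMat
  rw [← J_sum_submatrix, transpose_submatrix, Matrix.submatrix_mul_equiv,
    Matrix.submatrix_mul_equiv]
  congr 1
  simp only [fromBlocks_transpose, fromBlocks_multiply, Matrix.mul_zero, Matrix.zero_mul,
    add_zero, zero_add, transpose_zero, transpose_one, Matrix.mul_one, Matrix.one_mul, hA]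

/-- Padding by an identity block, as a homomorphism of symplectic groups. -/
def padSp : symplecticGroup α R →* symplecticGroup (α ⊕ β) R where
  toFun A := ⟨padSpMat A.1, padSpMat_mem A.1 A.2⟩
  map_one' := by
    apply Subtype.ext
    change padSpMat (1 : Matrix (α ⊕ α) (α ⊕ α) R) = 1
    unfold padSpMat
    rw [fromBlocks_one, submatrix_one_equiv]
  map_mul' A B := by
    apply Subtype.ext
    change padSpMat (A.1 * B.1) = padSpMat A.1 * padSpMat B.1
    unfold padSpMat
    rw [Matrix.submatrix_mul_equiv, fromBlocks_multiply]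
    simp

theorem padSp_injective : Function.Injective (padSp (R := R) (α := α) (β := β)) := by
  intro A B h
  have h1 : padSpMat (β := β) A.1 = padSpMat B.1 := congrArg Subtype.val h
  unfold padSpMat at h1
  have h2 := congrArg (fun M => M.submatrix (Equiv.sumSumSumComm α β α β).symm
    (Equiv.sumSumSumComm α β α β).symm) h1
  simp only [submatrix_submatrix, Equiv.self_comp_symm, submatrix_id_id] at h2
  exact Subtype.ext (fromBlocks_inj.1 h2).1

end pad

section torus

variable {K : Type u} [Field K] [Fintype K]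

omit [Fintype K] in
/-- An element of the split torus of `SL_2`. -/
def splitElt (x : Kˣ) : Matrix.SpecialLinearGroup (Fin 2) K :=
  ⟨!![(x : K), 0; 0, ((x⁻¹ : Kˣ) : K)], by
    rw [Matrix.det_fin_two_of]
    simp⟩

omit [Fintype K] in
theorem splitElt_coe (x : Kˣ) :
    (splitElt x : Matrix (Fin 2) (Fin 2) K) = !![(x : K), 0; 0, ((x⁻¹ : Kˣ) : K)] := rfl

omit [Fintype K] in
/-- The split torus of `SL_2`. -/
def splitTorus : Kˣ →* Matrix.SpecialLinearGroup (Fin 2) K where
  toFun := splitElt
  map_one' := by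
    apply Subtype.ext
    rw [splitElt_coe]
    ext i j
    fin_cases i <;> fin_cases j <;> simp
  map_mul' x y := by
    apply Subtype.ext
    rw [Matrix.SpecialLinearGroup.coe_mul, splitElt_coe, splitElt_coe, splitElt_coe]
    ext i j
    fin_cases i <;> fin_cases j <;> simp [Matrix.mul_apply, Fin.sum_univ_two, mul_comm]

omit [Fintype K] in
theorem splitTorus_injective : Function.Injective (splitTorus (K := K)) := by
  intro x y h
  have h1 := congrArg (fun g : Matrix.SpecialLinearGroup (Fin 2) K =>
    (g : Matrix (Fin 2) (Fin 2) K) 0 0) h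
  apply Units.ext
  exact h1

theorem exists_injective_SL2_split (m : ℕ) (hm : m ∣ Fintype.card K - 1) :
    ∃ φ : Multiplicative (ZMod m) →* Matrix.SpecialLinearGroup (Fin 2) K, Function.Injective φ := by
  obtain ⟨ψ, hψ⟩ := exists_injective_of_cyclic (G := Kˣ) m (by
    rwa [Nat.card_units, Nat.card_eq_fintype_card])
  exact ⟨splitTorus.comp ψ, splitTorus_injective.comp hψ⟩

theorem exists_injective_SL2_nonsplit (m : ℕ) (hm : m ∣ Fintype.card K ^ 2 - 1)
    (hcop : Nat.Coprime m (Fintype.card K - 1)) :
    ∃ φ : Multiplicative (ZMod m) →* Matrix.SpecialLinearGroup (Fin 2) K, Function.Injective φ := by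
  classical
  obtain ⟨j, hj⟩ := exists_injective_torus (F := K) 2 1 2 m (by norm_num) (by norm_num) hm
  let c : Multiplicative (ZMod m) →* (Fin 1 → Multiplicative (ZMod m)) :=
    { toFun := fun z _ => z
      map_one' := rfl
      map_mul' := fun _ _ => rfl }
  have hc : Function.Injective c := fun x y h => congrFun h 0
  let j₁ : Multiplicative (ZMod m) →* Matrix.GeneralLinearGroup (Fin 2) K := j.comp c
  have hj₁ : Function.Injective j₁ := hj.comp hc
  have hdet : ∀ t, (j₁ t : Matrix (Fin 2) (Fin 2) K).det = 1 := by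
    intro t
    apply det_eq_one_of_coprime j₁
    have h1 : Nat.card (Multiplicative (ZMod m)) = m := Nat.card_zmod _
    rw [h1]
    exact hcop
  let φ : Multiplicative (ZMod m) →* Matrix.SpecialLinearGroup (Fin 2) K :=
    { toFun := fun t => (⟨(j₁ t : Matrix (Fin 2) (Fin 2) K), hdet t⟩ :
        Matrix.SpecialLinearGroup (Fin 2) K)
      map_one' := by
        apply Subtype.ext
        simp
      map_mul' := fun a b => by
        apply Subtype.ext
        show ((j₁ (a * b) : Matrix.GeneralLinearGroup (Fin 2) K) : Matrix (Fin 2) (Fin 2) K) =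
          (j₁ a : Matrix (Fin 2) (Fin 2) K) * (j₁ b : Matrix (Fin 2) (Fin 2) K)
        rw [map_mul, Units.val_mul] }
  refine ⟨φ, ?_⟩
  intro x y h
  apply hj₁
  apply Units.ext
  exact congrArg Subtype.val h

end torus

section embed

variable {F : Type u} [Field F] [Fintype F]

/-- The torus `(Z_m)^a` embeds in `Sp_{2n}(q)` when `e a ≤ n` and `m` divides `q^e - 1`, or
divides `q^{2e} - 1` and is prime to `q^e - 1`. -/
theorem exists_injective_sp_torus (e a n m : ℕ) (he : 0 < e) (hea : a * e ≤ n)
    (hm : m ∣ Fintype.card F ^ e - 1 ∨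
      (m ∣ (Fintype.card F ^ e) ^ 2 - 1 ∧ Nat.Coprime m (Fintype.card F ^ e - 1))) :
    ∃ j : (Fin a → Multiplicative (ZMod m)) →* symplecticGroup (Fin n) F, Function.Injective j := by
  classical
  obtain ⟨p, hp⟩ := CharP.exists F
  have : Fact p.Prime := ⟨CharP.char_is_prime F p⟩
  have : NeZero e := ⟨he.ne'⟩
  let K := FiniteField.Extension F p e
  have hfin : Module.finrank F K = e := FiniteField.finrank_extension F p e
  have : Fintype K := Fintype.ofFinite K
  have hcardK : Fintype.card K = Fintype.card F ^ e := by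
    rw [← Nat.card_eq_fintype_card, FiniteField.natCard_extension, Nat.card_eq_fintype_card]
  obtain ⟨φ, hφ⟩ : ∃ φ : Multiplicative (ZMod m) →* Matrix.SpecialLinearGroup (Fin 2) K,
      Function.Injective φ := by
    rcases hm with h1 | ⟨h1, h2⟩
    · exact exists_injective_SL2_split m (by rw [hcardK]; exact h1)
    · exact exists_injective_SL2_nonsplit m (by rw [hcardK]; exact h1) (by rw [hcardK]; exact h2)
  let Φ₀ : (Fin a → Multiplicative (ZMod m)) →* (Fin a → Matrix.SpecialLinearGroup (Fin 2) K) :=
    MonoidHom.pi fun i => φ.comp (Pi.evalMonoidHom _ i)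
  have hΦ₀ : Function.Injective Φ₀ := by
    intro x y h
    funext i
    exact hφ (congrFun h i)
  let b : Module.Basis (Fin e) F K := Module.finBasisOfFinrankEq F K hfin
  set T : Matrix (Fin e) (Fin e) F := Algebra.traceMatrix F b with hT
  have hdet : T.det ≠ 0 := by
    rw [hT, Algebra.traceMatrix_of_basis]
    exact det_traceForm_ne_zero b
  have hunit : IsUnit T.det := isUnit_iff_ne_zero.mpr hdet
  have hTT' : T * T⁻¹ = 1 := Matrix.mul_nonsing_inv T hunit
  have hT'T : T⁻¹ * T = 1 := Matrix.nonsing_inv_mul T hunit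
  have hTt : Tᵀ = T := by
    ext i j
    simp only [hT, Matrix.transpose_apply, Algebra.traceMatrix_apply, Algebra.traceForm_apply]
    rw [mul_comm]
  let L : K →+* Matrix (Fin e) (Fin e) F := (Algebra.leftMulMatrix b).toRingHom
  have hL : Function.Injective L := Algebra.leftMulMatrix_injective b
  have hLT : ∀ x, (L x)ᵀ * T = T * L x := fun x => Cfsg.Agent.S2678.leftMul_transpose_trace b x
  let ρ : symplecticGroup (Fin a) K →* symplecticGroup (Fin a × Fin e) F :=
    Cfsg.Agent.Lib.Helper45.restrictHom (α := Fin a) L T T⁻¹ hTT' hT'T hTt hLT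
  have hρ : Function.Injective ρ :=
    Cfsg.Agent.Lib.Helper45.restrictHom_injective L hL T T⁻¹ hTT' hT'T hTt hLT
  let pd : symplecticGroup (Fin a × Fin e) F →*
      symplecticGroup ((Fin a × Fin e) ⊕ Fin (n - a * e)) F := padSp
  have hpd : Function.Injective pd := padSp_injective
  let ε : Fin n ≃ (Fin a × Fin e) ⊕ Fin (n - a * e) :=
    ((Equiv.sumCongr finProdFinEquiv (Equiv.refl _)).trans
      (finSumFinEquiv.trans (finCongr (by omega)))).symm
  refine ⟨(Cfsg.Agent.Lib.Helper45.reindexSp (R := F) ε).comp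
    (pd.comp (ρ.comp (sl2DiagHom.comp Φ₀))), ?_⟩
  exact (Cfsg.Agent.Lib.Helper45.reindexSp_injective (R := F) ε).comp
    (hpd.comp (hρ.comp (sl2DiagHom_injective.comp hΦ₀)))

end embed

section numerics

open Finset

variable (r : ℕ) [Fact r.Prime] (q : ℕ)

theorem factorization_card_symplectic (hq : 2 ≤ q) (hrq : ¬ r ∣ q) (hr2 : r ≠ 2) (n : ℕ)
    (hn : n < r) :
    (q ^ (n ^ 2) * ∏ i ∈ range n, (q ^ (2 * (i + 1)) - 1)).factorization r =
      ((Icc 1 n).filter (fun i => orderOf (q : ZMod r) ∣ 2 * i)).card *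
        (q ^ orderOf (q : ZMod r) - 1).factorization r := by
  have hp : r.Prime := Fact.out
  set d := orderOf (q : ZMod r) with hd
  have hd0 : 0 < d := orderOf_zmod_pos r q hrq
  have hdd : r ∣ q ^ d - 1 := (dvd_pow_sub_one_iff r q (by omega) d).2 dvd_rfl
  have hterm : ∀ i ∈ range n, q ^ (2 * (i + 1)) - 1 ≠ 0 := by
    intro i _
    have h1 : 2 ≤ q ^ (2 * (i + 1)) := by
      calc 2 ≤ q := hq
        _ = q ^ 1 := (pow_one q).symm
        _ ≤ q ^ (2 * (i + 1)) := Nat.pow_le_pow_right (by omega) (by omega)
    omega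
  have hfac : ∀ i ∈ range n, (q ^ (2 * (i + 1)) - 1).factorization r =
      if d ∣ 2 * (i + 1) then (q ^ d - 1).factorization r else 0 := by
    intro i hi
    rw [mem_range] at hi
    split_ifs with hdvd
    · obtain ⟨t, ht⟩ := hdvd
      rw [ht]
      apply factorization_pow_mul_sub_one r q hq d t hd0 hdd
      intro hrt
      have ht0 : t ≠ 0 := by
        rintro rfl
        rw [mul_zero] at ht
        omega
      obtain ⟨s, hs⟩ := hrt
      have hs0 : s ≠ 0 := by
        rintro rfl
        rw [mul_zero] at hs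
        exact ht0 hs
      -- d * r * s = 2 * (i + 1) ≤ 2 * n < 2 * r
      have h1 : d * (r * s) = 2 * (i + 1) := by rw [← hs, ← ht]
      have h2 : d * s < 2 := by
        by_contra hcon
        have h3 : 2 ≤ d * s := not_lt.1 hcon
        have h4 : 2 * r ≤ d * s * r := Nat.mul_le_mul_right r h3
        have h5 : d * s * r = d * (r * s) := by ring
        omega
      have hds : d * s = 1 := by
        have : 0 < d * s := Nat.mul_pos hd0 (Nat.pos_of_ne_zero hs0)
        omega
      have h6 : r = 2 * (i + 1) := by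
        have h7 : d * (r * s) = (d * s) * r := by ring
        rw [h7, hds, one_mul] at h1
        exact h1
      have h8 : 2 ∣ r := ⟨i + 1, h6⟩
      exact hr2 ((Nat.prime_dvd_prime_iff_eq Nat.prime_two hp).1 h8).symm
    · apply Nat.factorization_eq_zero_of_not_dvd
      rwa [dvd_pow_sub_one_iff r q (by omega)]
  have hprod0 : ∏ i ∈ range n, (q ^ (2 * (i + 1)) - 1) ≠ 0 := Finset.prod_ne_zero_iff.2 hterm
  rw [Nat.factorization_mul (pow_ne_zero _ (by omega)) hprod0, Finsupp.add_apply,
    Nat.factorization_pow, Finsupp.smul_apply, Nat.factorization_eq_zero_of_not_dvd hrq,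
    smul_zero, zero_add, Nat.factorization_prod hterm, Finset.sum_apply',
    Finset.sum_congr rfl hfac]
  have hshift : ∑ i ∈ range n, (if d ∣ 2 * (i + 1) then (q ^ d - 1).factorization r else 0) =
      ∑ i ∈ Icc 1 n, (if d ∣ 2 * i then (q ^ d - 1).factorization r else 0) := by
    induction n with
    | zero => simp
    | succ k ih =>
      rw [Finset.sum_range_succ, ih (by omega) (fun i hi => hterm i (by
        rw [mem_range] at hi ⊢; omega)) (fun i hi => hfac i (by rw [mem_range] at hi ⊢; omega))
        (Finset.prod_ne_zero_iff.2 (fun i hi => hterm i (by rw [mem_range] at hi ⊢; omega))),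
        ← Finset.sum_Icc_succ_top (by omega)]
  rw [hshift, Finset.sum_ite, Finset.sum_const_zero, add_zero, Finset.sum_const, smul_eq_mul]

/-- The set of `i ≤ n` with `d ∣ 2 i` consists of the multiples of `e`, where `e = d` for `d` odd
and `e = d / 2` for `d` even. -/
theorem card_filter_dvd_two_mul (d e n : ℕ) (hde : (d = e ∧ Odd d) ∨ d = 2 * e) :
    ((Icc 1 n).filter (fun i => d ∣ 2 * i)).card = n / e := by
  rw [← Nat.Ioc_filter_dvd_card_eq_div]
  congr 1
  ext x
  simp only [Finset.mem_filter, Finset.mem_Icc, Finset.mem_Ioc]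
  have hiff : d ∣ 2 * x ↔ e ∣ x := by
    rcases hde with ⟨rfl, hodd⟩ | rfl
    · constructor
      · intro h
        exact (Nat.Coprime.dvd_mul_left (Nat.Coprime.symm (Nat.coprime_two_left.2 hodd))).1 h
      · intro h
        exact dvd_mul_of_dvd_right h 2
    · exact Nat.mul_dvd_mul_iff_left (by norm_num)
  rw [hiff]
  constructor
  · rintro ⟨⟨h1, h2⟩, h3⟩
    exact ⟨⟨by omega, h2⟩, h3⟩
  · rintro ⟨⟨h1, h2⟩, h3⟩
    exact ⟨⟨by omega, h2⟩, h3⟩

end numerics

section main

/-- A group embedded in a finite group with the order of a Sylow subgroup is isomorphic to the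
Sylow subgroups. -/
theorem sylow_equiv_of_injective {G : Type*} [Group G] [Finite G] (r : ℕ) [Fact r.Prime]
    {T : Type*} [Group T] (j : T →* G) (hj : Function.Injective j)
    (hcard : Nat.card T = r ^ (Nat.card G).factorization r) (P : Sylow r G) :
    Nonempty (↥(P : Subgroup G) ≃* T) := by
  have hcardH : Nat.card j.range = r ^ (Nat.card G).factorization r := by
    rw [← Nat.card_congr (MonoidHom.ofInjective hj).toEquiv, hcard]
  let Q : Sylow r G := Sylow.ofCard j.range hcardH
  exact ⟨(Sylow.equiv P Q).trans (MonoidHom.ofInjective hj).symm⟩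

/-- Sylow `r`-subgroups of `Sp_{2n}(q)` for an odd prime `r > n` not dividing `q` are
homocyclic. -/
theorem sylow_Sp_homocyclic {F : Type u} [Field F] [Fintype F] {q : ℕ} (hq : Fintype.card F = q)
    (n : ℕ) (r : ℕ) [Fact r.Prime] (hr2 : r ≠ 2) (hrn : n < r) (hrq : ¬ r ∣ q)
    (P : Sylow r ↥(Matrix.symplecticGroup (Fin n) F)) :
    Nonempty (↥(P : Subgroup ↥(Matrix.symplecticGroup (Fin n) F)) ≃*
      (Fin ((Finset.Icc 1 n).filter (fun i => orderOf (q : ZMod r) ∣ 2 * i)).card →
        Multiplicative (ZMod (r ^ padicValNat r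
          ((Polynomial.cyclotomic (orderOf (q : ZMod r)) ℤ).eval (q : ℤ)).natAbs)))) := by
  classical
  have hp : r.Prime := Fact.out
  have hq2 : 2 ≤ q := by
    rw [← hq]
    exact Fintype.one_lt_card
  set d := orderOf (q : ZMod r) with hd
  have hd0 : 0 < d := orderOf_zmod_pos r q hrq
  have hv := factorization_cyclotomic r q hq2 hrq
  rw [← hd] at hv
  set v := padicValNat r ((Polynomial.cyclotomic d ℤ).eval (q : ℤ)).natAbs with hvdef
  have hm : r ^ v ∣ q ^ d - 1 := by
    rw [← hv]
    exact Nat.ordProj_dvd _ _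
  set a := ((Finset.Icc 1 n).filter (fun i => d ∣ 2 * i)).card with ha
  have hcardG : (Nat.card (symplecticGroup (Fin n) F)).factorization r = a * v := by
    rw [card_symplecticGroup, hq, factorization_card_symplectic r q hq2 hrq hr2 n hrn, ← hd, hv]
  have hcardT : Nat.card (Fin a → Multiplicative (ZMod (r ^ v))) = (r ^ v) ^ a := by
    rw [Nat.card_fun, Nat.card_fin]
    congr 1
    exact Nat.card_zmod _
  obtain ⟨j, hj⟩ : ∃ j : (Fin a → Multiplicative (ZMod (r ^ v))) →* symplecticGroup (Fin n) F,
      Function.Injective j := by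
    rcases Nat.even_or_odd d with hev | hodd
    · obtain ⟨e, he⟩ := hev
      have he2 : d = 2 * e := by omega
      have he0 : 0 < e := by omega
      have hae : a = n / e := card_filter_dvd_two_mul d e n (Or.inr he2)
      apply exists_injective_sp_torus (F := F) e a n (r ^ v) he0
      · rw [hae]
        exact Nat.div_mul_le_self n e
      · right
        rw [hq]
        constructor
        · rw [← pow_mul, mul_comm e 2, ← he2]
          exact hm
        · apply Nat.Coprime.pow_left
          rw [Nat.Prime.coprime_iff_not_dvd hp, dvd_pow_sub_one_iff r q (by omega), ← hd]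
          intro hde
          have := Nat.le_of_dvd he0 hde
          omega
    · have hae : a = n / d := card_filter_dvd_two_mul d d n (Or.inl ⟨rfl, hodd⟩)
      apply exists_injective_sp_torus (F := F) d a n (r ^ v) hd0
      · rw [hae]
        exact Nat.div_mul_le_self n d
      · left
        rw [hq]
        exact hm
  exact sylow_equiv_of_injective r j hj (by rw [hcardT, hcardG, ← pow_mul, mul_comm]) P

end main

end Cfsg.Agent.Lib.Helper40
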